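import Cfsg.Agent.H259.U6.Main

/-!
# F4 of S2491: moved isotropic vectors in `SU₆(2)` (helper486)

`exists_iso` : for a noncentral `g` of `SU₆(2)` there is an isotropic `v` with `(g v, v) ≠ 0`.
-/

set_option autoImplicit false
set_option linter.unusedSectionVars false
set_option maxRecDepth 100000

namespace Cfsg.Agent.H486.F4

open Cfsg Cfsg.Agent.LieClassical.HermBasic Cfsg.Agent.ClassicalGeometry.UnitTransv
  Cfsg.Agent.SporadicStructure.UnitTwo
open Cfsg.Agent.LieClassical.HermSiegel (mat mat_mul mat_injective)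
open Cfsg.Agent.ClassicalGeometry.PSUAutCount (gm guConj gm_inv_mul gm_mul_inv herm_gm gm_inv_mulVec gm_mulVec_inv)
open Cfsg.Agent.H259.U6
open scoped Matrix

/-- isotropic vectors which the representatives move to nonorthogonal ones -/
def VV : List ℕ := [0, 5, 6, 5, 5, 5, 5, 5, 5, 5, 6, 7, 5, 17, 5, 5, 5, 5, 5, 5, 6, 5, 6, 6, 5, 5, 6, 5, 5, 5, 5, 7, 5,
  5, 6, 5, 5, 5, 5, 6]

theorem vv_tab : ∀ i < 40, i = 0 ∨ (VV.getD i 0 < 4096 ∧ hm (VV.getD i 0) (VV.getD i 0) = 0 ∧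
    hm (mx (H767.U6.XP.getD i 0) (VV.getD i 0)) (VV.getD i 0) ≠ 0) := by decide +kernel

section F

variable {F : Type*} [Field F] [Fintype F] (hF : Fintype.card F = 2 ^ 2)

include hF in
theorem exists_iso {g : SU 6 F 2} (hg : g ∉ Subgroup.center (SU 6 F 2)) :
    ∃ v : Fin 6 → F, hermForm 6 F 2 v v = 0 ∧ hermForm 6 F 2 (act g v) v ≠ 0 := by
  obtain ⟨ω, hω⟩ := exists_omega hF
  obtain ⟨i, hi, l, hl, c, hc⟩ := H767.U6.cover hF hω g
  have hl0 : l ≠ 0 := by omega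
  have hl4 : l < 4 := by omega
  rcases vv_tab i hi with rfl | ⟨h1, h2, h3⟩
  · exfalso
    refine hg (scalar_central (s := H767.U6.d4 ω l) ?_)
    rw [X_zero, Matrix.smul_mul, Matrix.one_mul] at hc
    have h3 : mat g = gm c⁻¹ * (H767.U6.d4 ω l • gm c) := by
      rw [← hc, ← Matrix.mul_assoc, gm_inv_mul, Matrix.one_mul]
    rw [h3, Matrix.mul_smul, gm_inv_mul]
  · generalize VV.getD i 0 = v at h1 h2 h3
    refine ⟨gm c⁻¹ *ᵥ dec ω v, ?_, ?_⟩
    · rw [herm_gm]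
      exact (herm_eq_zero_iff hF hω v v).2 h2
    · have e : act g (gm c⁻¹ *ᵥ dec ω v) = gm c⁻¹ *ᵥ (H767.U6.d4 ω l • dec ω (mx (H767.U6.XP.getD i 0) v)) := by
        show mat g *ᵥ (gm c⁻¹ *ᵥ dec ω v) = _
        have h4 : mat g = gm c⁻¹ * ((H767.U6.d4 ω l • H767.U6.X ω i) * gm c) := by
          rw [← hc, ← Matrix.mul_assoc, gm_inv_mul, Matrix.one_mul]
        rw [h4, ← Matrix.mulVec_mulVec, ← Matrix.mulVec_mulVec, gm_mulVec_inv, Matrix.smul_mulVec, H767.U6.X,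
          ← dec_mx hF hω]
      rw [e, herm_gm, herm_smul_left]
      refine mul_ne_zero ?_ fun h => h3 ((herm_eq_zero_iff hF hω _ _).1 h)
      rw [d4_eq]
      exact d4_ne hω hl4 hl0

end F

end Cfsg.Agent.H486.F4
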